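import Cfsg.Agent.H319.FC.Defs

/-!
# S5764, SP4G, piece F3 (helper523)

`stF3` : an element of odd prime order of `Sp_4(F)`, `F` finite of characteristic two, reducible, which does not satisfy
`z² + s z + 1 = 0`, leaves a non-degenerate plane invariant.
-/

set_option autoImplicit false

namespace Cfsg.Agent.H523.FC

open Polynomial Module Submodule

/-- two independent vectors in a plane -/
theorem mem_span_pair_of {F V : Type*} [Field F] [AddCommGroup V] [Module F V] [FiniteDimensional F V]
    {U : Submodule F V} (hU : finrank F U = 2) {x y : V} (hx : x ∈ U) (hy : y ∈ U)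
    (hxy : LinearIndependent F ![x, y]) {v : V} (hv : v ∈ U) : v ∈ span F {x, y} := by
  have h1 : span F {x, y} ≤ U := by
    rw [span_le]
    intro z hz
    rcases hz with rfl | rfl
    · exact hx
    · exact hy
  have h2 : finrank F (span F (Set.range ![x, y])) = 2 := by
    rw [finrank_span_eq_card hxy, Fintype.card_fin]
  have h3 : Set.range ![x, y] = {x, y} := by
    rw [Matrix.range_cons, Matrix.range_cons, Matrix.range_empty, Set.union_empty]
    rfl
  rw [h3] at h2
  have h4 := Submodule.eq_of_le_of_finrank_eq h1 (by rw [h2, hU])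
  rw [h4]
  exact hv

/-- **F3**, abstract form -/
theorem f3_abs {F V : Type*} [Field F] [CharP F 2] [AddCommGroup V] [Module F V] [FiniteDimensional F V]
    (h4 : finrank F V = 4) (B : V →ₗ[F] V →ₗ[F] F) (halt : ∀ v, B v v = 0)
    (hnd : ∀ u, (∀ v, B v u = 0) → u = 0) (hnd' : ∀ u, (∀ v, B u v = 0) → u = 0) (T : End F V)
    (hT : ∀ u v, B (T u) (T v) = B u v) {r : ℕ} (hr : r.Prime) (hr2 : r ≠ 2) (hTr : T ^ r = 1)
    (hs : ¬ ∃ s : F, ∀ v, T (T v) + s • T v + v = 0) (W : Submodule F V) (hW : ∀ v ∈ W, T v ∈ W) (hWb : W ≠ ⊥)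
    (hWt : W ≠ ⊤) : ∃ x y, B x y = 1 ∧ T x ∈ span F {x, y} ∧ T y ∈ span F {x, y} := by
  classical
  have hsub : ∀ a b : V, a + b = 0 → a = b := by
    intro a b h
    have h1 : (2 : F) = 0 := CharTwo.two_eq_zero
    have h2 : b + b = 0 := by
      rw [← two_smul F b, h1, zero_smul]
    rw [← h2] at h
    exact add_right_cancel h
  have hself : ∀ b : V, b + b = 0 := by
    intro b
    have h1 : (2 : F) = 0 := CharTwo.two_eq_zero
    rw [← two_smul F b, h1, zero_smul]
  have hr0 : (r : F) ≠ 0 := by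
    rw [Ne, CharP.cast_eq_zero_iff F 2 r, Nat.prime_dvd_prime_iff_eq Nat.prime_two hr]
    exact hr2.symm
  have hsep : (X ^ r - 1 : F[X]).Separable := X_pow_sub_one_separable_iff.2 hr0
  have hann : aeval T (X ^ r - 1 : F[X]) = 0 := by
    rw [map_sub, map_pow, aeval_X, hTr, map_one, sub_self]
  have hss : T.IsSemisimple := End.isSemisimple_of_squarefree_aeval_eq_zero hsep.squarefree hann
  have hcompl : ∀ U : Submodule F V, (∀ v ∈ U, T v ∈ U) → ∃ U' : Submodule F V, (∀ v ∈ U', T v ∈ U') ∧ IsCompl U U' := by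
    intro U hU
    obtain ⟨U', hU', h⟩ := End.isSemisimple_iff.1 hss U ((End.mem_invtSubmodule T).2 fun v hv => hU v hv)
    exact ⟨U', fun v hv => (End.mem_invtSubmodule T).1 hU' hv, h⟩
  have hTinj : ∀ v, T v = 0 → v = 0 := by
    intro v hv
    have h1 : (T ^ r) v = v := by rw [hTr]; rfl
    rw [← h1, ← Nat.sub_add_cancel hr.one_le, pow_succ]
    change (T ^ (r - 1)) (T v) = 0
    rw [hv, map_zero]
  by_cases hA : ∃ u, u ≠ 0 ∧ ∃ a : F, T u = a • u
  · obtain ⟨u, hu, a, ha⟩ := hA
    have ha0 : a ≠ 0 := by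
      rintro rfl
      rw [zero_smul] at ha
      exact hu (hTinj u ha)
    obtain ⟨U', hU', hc⟩ := hcompl (LinearMap.ker (B u)) (fun v hv => by
      rw [LinearMap.mem_ker] at hv ⊢
      have h1 := hT u v
      rw [ha, map_smul, LinearMap.smul_apply, smul_eq_mul, hv] at h1
      exact (mul_eq_zero.1 h1).resolve_left ha0)
    obtain ⟨w, hw, hw0⟩ : ∃ w ∈ U', B u w ≠ 0 := by
      by_contra hcon
      push Not at hcon
      apply hu
      apply hnd'
      intro v
      obtain ⟨k, hk, l, hl, rfl⟩ := Submodule.mem_sup.1 (show v ∈ LinearMap.ker (B u) ⊔ U' by rw [hc.sup_eq_top]; trivial)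
      rw [map_add, LinearMap.mem_ker.1 hk, hcon l hl, add_zero]
    refine ⟨u, (B u w)⁻¹ • w, ?_, ?_, ?_⟩
    · rw [map_smul, smul_eq_mul, inv_mul_cancel₀ hw0]
    · rw [ha]
      exact smul_mem _ _ (subset_span (by simp))
    · set w' := (B u w)⁻¹ • w with hw'
      have hw'1 : B u w' = 1 := by rw [hw', map_smul, smul_eq_mul, inv_mul_cancel₀ hw0]
      have hw'm : w' ∈ U' := smul_mem _ _ hw
      have h1 : T w' - B u (T w') • w' ∈ LinearMap.ker (B u) ⊓ U' := by
        refine ⟨?_, sub_mem (hU' _ hw'm) (smul_mem _ _ hw'm)⟩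
        rw [SetLike.mem_coe, LinearMap.mem_ker, map_sub, (B u).map_smul, hw'1, smul_eq_mul, mul_one, sub_self]
      rw [hc.inf_eq_bot, Submodule.mem_bot, sub_eq_zero] at h1
      rw [h1]
      exact smul_mem _ _ (subset_span (by simp))
  push Not at hA
  obtain ⟨W', hW', hc⟩ := hcompl W hW
  have hW'b : W' ≠ ⊥ := by
    rintro rfl
    apply hWt
    have h1 := hc.sup_eq_top
    rwa [sup_bot_eq] at h1
  have hdim : ∀ U : Submodule F V, (∀ v ∈ U, T v ∈ U) → U ≠ ⊥ → 2 ≤ finrank F U := by
    intro U hU hUb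
    by_contra hlt
    have h0 : finrank F U ≠ 0 := by
      rw [Ne, Submodule.finrank_eq_zero]
      exact hUb
    have h1 : finrank F U = 1 := by omega
    obtain ⟨u, hu, hu0⟩ := Submodule.exists_mem_ne_zero_of_ne_bot hUb
    have h2 := (finrank_eq_one_iff_of_nonzero' (⟨u, hu⟩ : U) (fun h => hu0 (congrArg Subtype.val h))).1 h1
      ⟨T u, hU u hu⟩
    obtain ⟨c, hc⟩ := h2
    exact hA u hu0 c (congrArg Subtype.val hc).symm
  have hsum := Submodule.finrank_add_eq_of_isCompl hc
  rw [h4] at hsum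
  have hd1 := hdim W hW hWb
  have hd2 := hdim W' hW' hW'b
  have hW2 : finrank F W = 2 := by omega
  have hW'2 : finrank F W' = 2 := by omega
  -- a non-degenerate invariant plane
  have hplane : ∀ U : Submodule F V, (∀ v ∈ U, T v ∈ U) → finrank F U = 2 → (∃ x ∈ U, ∃ y ∈ U, B x y ≠ 0) →
      ∃ x y, B x y = 1 ∧ T x ∈ span F {x, y} ∧ T y ∈ span F {x, y} := by
    rintro U hU hU2 ⟨x, hx, y, hy, hxy⟩
    have hy' : (B x y)⁻¹ • y ∈ U := smul_mem _ _ hy
    have hxy1 : B x ((B x y)⁻¹ • y) = 1 := by rw [map_smul, smul_eq_mul, inv_mul_cancel₀ hxy]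
    have hli : LinearIndependent F ![x, (B x y)⁻¹ • y] := by
      rw [LinearIndependent.pair_iff]
      intro a b hab
      have h1 := congrArg (B x) hab
      rw [map_add, map_smul, map_smul, halt, hxy1, smul_zero, zero_add, smul_eq_mul, mul_one, map_zero] at h1
      subst h1
      rw [zero_smul, add_zero] at hab
      refine ⟨?_, rfl⟩
      rcases smul_eq_zero.1 hab with h | h
      · exact h
      · exfalso
        rw [h, map_zero, LinearMap.zero_apply] at hxy1
        exact zero_ne_one hxy1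
    exact ⟨x, _, hxy1, mem_span_pair_of hU2 hx hy' hli (hU _ hx), mem_span_pair_of hU2 hx hy' hli (hU _ hy')⟩
  by_cases hB1 : ∃ x ∈ W, ∃ y ∈ W, B x y ≠ 0
  · exact hplane W hW hW2 hB1
  by_cases hB2 : ∃ x ∈ W', ∃ y ∈ W', B x y ≠ 0
  · exact hplane W' hW' hW'2 hB2
  exfalso
  push Not at hB1 hB2
  obtain ⟨u, hu, hu0⟩ := Submodule.exists_mem_ne_zero_of_ne_bot hWb
  have hli : LinearIndependent F ![u, T u] := by
    rw [LinearIndependent.pair_iff]
    intro a b hab
    by_cases hb : b = 0
    · subst hb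
      rw [zero_smul, add_zero] at hab
      exact ⟨(smul_eq_zero.1 hab).resolve_right hu0, rfl⟩
    · exfalso
      apply hA u hu0 (-(b⁻¹ * a))
      have h1 : b⁻¹ • (a • u + b • T u) = 0 := by rw [hab, smul_zero]
      rw [smul_add, smul_smul, smul_smul, inv_mul_cancel₀ hb, one_smul, add_comm] at h1
      rw [neg_smul]
      exact eq_neg_of_add_eq_zero_left h1
  obtain ⟨d, s, hds⟩ : ∃ d s : F, T (T u) = d • u + s • T u := by
    have h1 := mem_span_pair_of hW2 hu (hW _ hu) hli (hW _ (hW _ hu))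
    obtain ⟨d, s, h⟩ := Submodule.mem_span_pair.1 h1
    exact ⟨d, s, h.symm⟩
  have hWv : ∀ v ∈ W, T (T v) = d • v + s • T v := by
    intro v hv
    obtain ⟨α, β, rfl⟩ := Submodule.mem_span_pair.1 (mem_span_pair_of hW2 hu (hW _ hu) hli hv)
    simp only [map_add, map_smul, hds]
    module
  have hW'v : ∀ w ∈ W', d • T (T w) + s • T w = w := by
    intro w hw
    have h1 : d • T (T w) + s • T w - w = 0 := by
      apply hnd
      intro v
      obtain ⟨k, hk, l, hl, rfl⟩ := Submodule.mem_sup.1 (show v ∈ W ⊔ W' by rw [hc.sup_eq_top]; trivial)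
      have hmem : d • T (T w) + s • T w - w ∈ W' :=
        sub_mem (add_mem (smul_mem _ _ (hW' _ (hW' _ hw))) (smul_mem _ _ (hW' _ hw))) hw
      rw [map_add, LinearMap.add_apply, hB2 l hl _ hmem, add_zero]
      have h2 : B k w = d * B k (T (T w)) + s * B k (T w) := by
        have h3 := hT (T k) (T w)
        rw [hT k w, hWv k hk, map_add, map_smul, map_smul, LinearMap.add_apply, LinearMap.smul_apply,
          LinearMap.smul_apply, hT k (T w), smul_eq_mul, smul_eq_mul] at h3
        exact h3.symm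
      rw [map_sub, map_add, map_smul, map_smul, smul_eq_mul, smul_eq_mul, h2, sub_self]
    exact sub_eq_zero.1 h1
  by_cases hd : d = 1
  · subst hd
    apply hs
    refine ⟨s, fun v => ?_⟩
    obtain ⟨k, hk, l, hl, rfl⟩ := Submodule.mem_sup.1 (show v ∈ W ⊔ W' by rw [hc.sup_eq_top]; trivial)
    have h1 := hWv k hk
    have h2 := hW'v l hl
    rw [one_smul] at h1 h2
    have h3 : T (T k) + s • T k + k = 0 := by
      rw [h1]
      have e : k + s • T k + s • T k + k = (k + k) + (s • T k + s • T k) := by abel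
      rw [e, hself, hself, add_zero]
    have h4 : T (T l) + s • T l + l = 0 := by
      rw [h2, hself]
    rw [map_add, map_add, smul_add]
    have e : T (T k) + T (T l) + (s • T k + s • T l) + (k + l) =
      (T (T k) + s • T k + k) + (T (T l) + s • T l + l) := by abel
    rw [e, h3, h4, add_zero]
  · -- `d ^ r = 1`
    let M : Matrix (Fin 2) (Fin 2) F := !![0, d; 1, s]
    have hφ : ∀ (k : ℕ) (c : Fin 2 → F), ((M ^ k).mulVec c) 0 • u + ((M ^ k).mulVec c) 1 • T u =
        (T ^ k) (c 0 • u + c 1 • T u) := by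
      intro k
      induction k with
      | zero => intro c; simp
      | succ k ih =>
        intro c
        rw [pow_succ, pow_succ, ← Matrix.mulVec_mulVec, ih]
        change _ = (T ^ k) (T (c 0 • u + c 1 • T u))
        congr 1
        have e0 : M.mulVec c 0 = d * c 1 := by
          simp [M, Matrix.mulVec, dotProduct, Fin.sum_univ_two]
        have e1 : M.mulVec c 1 = c 0 + s * c 1 := by
          simp [M, Matrix.mulVec, dotProduct, Fin.sum_univ_two]
        rw [e0, e1, map_add, map_smul, map_smul, hds]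
        module
    have hM : M ^ r = 1 := by
      have h1 : ∀ c : Fin 2 → F, (M ^ r).mulVec c = c := by
        intro c
        have h2 := hφ r c
        rw [hTr] at h2
        have h3 : ((M ^ r).mulVec c 0 - c 0) • u + ((M ^ r).mulVec c 1 - c 1) • T u = 0 := by
          have h4 : (1 : End F V) (c 0 • u + c 1 • T u) = c 0 • u + c 1 • T u := rfl
          rw [h4] at h2
          rw [sub_smul, sub_smul]
          have e : (M ^ r).mulVec c 0 • u - c 0 • u + ((M ^ r).mulVec c 1 • T u - c 1 • T u) =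
            ((M ^ r).mulVec c 0 • u + (M ^ r).mulVec c 1 • T u) - (c 0 • u + c 1 • T u) := by abel
          rw [e, h2, sub_self]
        obtain ⟨h5, h6⟩ := LinearIndependent.pair_iff.1 hli _ _ h3
        funext i
        fin_cases i
        · exact sub_eq_zero.1 h5
        · exact sub_eq_zero.1 h6
      apply Matrix.ext_of_mulVec_single
      intro i
      rw [h1, Matrix.one_mulVec]
    have hdr : d ^ r = 1 := by
      have h1 := congrArg Matrix.det hM
      rw [Matrix.det_pow, Matrix.det_one, Matrix.det_fin_two_of, zero_mul, mul_one, zero_sub] at h1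
      have h2 : (-d : F) = d := CharTwo.neg_eq d
      rwa [h2] at h1
    have : Fact r.Prime := ⟨hr⟩
    have hprim : IsPrimitiveRoot d r := by
      have h1 := orderOf_eq_prime hdr hd
      rw [← h1]
      exact IsPrimitiveRoot.orderOf d
    have hsplit := X_pow_sub_one_splits hprim
    have hne : (X ^ r - 1 : F[X]) ≠ 0 := (monic_X_pow_sub_C 1 hr.ne_zero).ne_zero
    have hdvd : minpoly F T ∣ X ^ r - 1 := minpoly.dvd F T hann
    have hsp : (minpoly F T).Splits := hsplit.of_dvd hne hdvd
    have hVnt : Nontrivial V := ⟨u, 0, hu0⟩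
    have hdeg : (minpoly F T).degree ≠ 0 := (minpoly.degree_pos (Algebra.IsIntegral.isIntegral T)).ne'
    obtain ⟨μ, hμ⟩ := hsp.exists_eval_eq_zero hdeg
    obtain ⟨v, hv⟩ := (End.hasEigenvalue_of_isRoot (f := T) (μ := μ) hμ).exists_hasEigenvector
    exact hA v hv.2 μ hv.apply_eq_smul

open Cfsg.Agent.H319.FC Cfsg.Agent.ClassicalGeometry.SympBasic Cfsg.Agent.ClassicalGeometry.SympAutSemi

/-- **F3** -/
theorem stF3 {F : Type*} [Field F] [Finite F] [CharP F 2] : StF3 F := by
  intro r z hr hr2 hzr hfix hs hirr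
  unfold Irr4 at hirr
  push Not at hirr
  obtain ⟨W, hW, hWb, hWt⟩ := hirr
  let T : End F (V4 F) := Matrix.mulVecLin (z : Matrix (Fin 2 ⊕ Fin 2) (Fin 2 ⊕ Fin 2) F)
  have hT : ∀ v, T v = rho 2 F z v := fun v => rfl
  have hTk : ∀ (k : ℕ) (v : V4 F), (T ^ k) v = rho 2 F (z ^ k) v := by
    intro k
    induction k with
    | zero => intro v; rw [pow_zero, pow_zero, map_one]; rfl
    | succ k ih =>
      intro v
      rw [pow_succ, pow_succ, map_mul]
      change (T ^ k) (T v) = rho 2 F (z ^ k) (rho 2 F z v)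
      rw [ih, hT]
  have h4 : finrank F (V4 F) = 4 := by
    rw [Module.finrank_pi]
    rfl
  exact f3_abs h4 (sympBilin 2 F) (fun v => sympForm_self v)
    (fun u h => eq_zero_of_forall_sympForm_left h) (fun u h => eq_zero_of_forall_sympForm_right h) T
    (fun u v => sympForm_rho z u v) hr hr2
    (by
      refine LinearMap.ext fun v => ?_
      rw [hTk, hzr, map_one]
      rfl) hs W hW hWb hWt

end Cfsg.Agent.H523.FC
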